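import Mathlib

/-!
# Modules from codes

For a group `S` acting on a set `Ω` and an `S`-invariant additive subgroup `C` of the functions `Ω → 𝔽_p`,
the differences `(a, b) ↦ c a - c b`, `c ∈ C`, form an `S`-module `W` (the quotient of `C` by the constants, when
they lie in `C`).  An element of order prime to `p` has no nonzero fixed vector on `W` as soon as the
invariant functions in `C` under it are constant.
-/

set_option autoImplicit false

namespace Cfsg.Agent.Lib.PrimeGraph.Code

variable {S Ω : Type} [Group S] [MulAction S Ω] (p : ℕ)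

/-- The action on functions. -/
def actF (g : S) (c : Ω → ZMod p) : Ω → ZMod p := fun a => c (g⁻¹ • a)

/-- Differences. -/
def delta : (Ω → ZMod p) →+ (Ω × Ω → ZMod p) where
  toFun c := fun q => c q.1 - c q.2
  map_zero' := by
    funext q
    simp
  map_add' c d := by
    funext q
    simp only [Pi.add_apply]
    ring

/-- The module attached to a code. -/
def codeW (C : AddSubgroup (Ω → ZMod p)) : AddSubgroup (Ω × Ω → ZMod p) := C.map (delta p)

/-- The action of the group on the module attached to a code. -/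
@[reducible] def codeAction (C : AddSubgroup (Ω → ZMod p)) (hC : ∀ (g : S), ∀ c ∈ C, actF p g c ∈ C) :
    DistribMulAction S (codeW p C) where
  smul g d := ⟨fun q => d.1 (g⁻¹ • q.1, g⁻¹ • q.2), by
    obtain ⟨d, c, hc, rfl⟩ := d
    exact ⟨actF p g c, hC g c hc, rfl⟩⟩
  one_smul d := by
    apply Subtype.ext
    funext q
    show d.1 ((1 : S)⁻¹ • q.1, (1 : S)⁻¹ • q.2) = d.1 q
    simp
  mul_smul g h d := by
    apply Subtype.ext
    funext q
    show d.1 ((g * h)⁻¹ • q.1, (g * h)⁻¹ • q.2) = d.1 (h⁻¹ • g⁻¹ • q.1, h⁻¹ • g⁻¹ • q.2)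
    simp [mul_smul]
  smul_zero g := by
    apply Subtype.ext
    rfl
  smul_add g d e := by
    apply Subtype.ext
    rfl

/-- The module is of exponent `p`. -/
lemma codeW_nsmul [Fact p.Prime] (C : AddSubgroup (Ω → ZMod p)) (w : codeW p C) : p • w = 0 := by
  apply Subtype.ext
  funext q
  show p • (w.1 q) = 0
  rw [nsmul_eq_mul, CharP.cast_eq_zero, zero_mul]

/-- The module is nontrivial as soon as the code has a nonconstant element. -/
lemma codeW_nontrivial (C : AddSubgroup (Ω → ZMod p)) (c : Ω → ZMod p) (hc : c ∈ C) (a b : Ω) (hab : c a ≠ c b) :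
    Nontrivial (codeW p C) := by
  refine ⟨⟨⟨delta p c, c, hc, rfl⟩, 0, fun h => hab ?_⟩⟩
  have h1 := congrFun (congrArg Subtype.val h) (a, b)
  have h2 : c a - c b = 0 := h1
  exact sub_eq_zero.1 h2

/-- An element of order prime to `p` has no nonzero fixed vector if the invariant elements of the code are
constant. -/
theorem fixed_eq_zero [Fact p.Prime] [Finite S] (C : AddSubgroup (Ω → ZMod p)) (hC : ∀ (g : S), ∀ c ∈ C, actF p g c ∈ C)
    (g : S) (hn : ((orderOf g : ℕ) : ZMod p) ≠ 0)
    (hP : ∀ T ∈ C, (∀ a, T (g • a) = T a) → ∀ a b, T a = T b)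
    (w : codeW p C) (hw : (letI := codeAction p C hC; g • w) = w) : w = 0 := by
  obtain ⟨d, c, hc, rfl⟩ := w
  have h1 : ∀ q : Ω × Ω, c (g⁻¹ • q.1) - c (g⁻¹ • q.2) = c q.1 - c q.2 := fun q =>
    congrFun (congrArg Subtype.val hw) q
  -- the difference `c (g⁻¹ a) - c a` is a constant `e`
  by_cases hne : Nonempty Ω
  swap
  · apply Subtype.ext
    funext q
    exact absurd ⟨q.1⟩ hne
  obtain ⟨a₀⟩ := hne
  set e := c (g⁻¹ • a₀) - c a₀ with he
  have h2 : ∀ a, c (g⁻¹ • a) = c a + e := by
    intro a
    have h3 := h1 (a, a₀)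
    simp only at h3
    rw [he]
    linear_combination h3
  have h3 : ∀ (j : ℕ) a, c ((g⁻¹) ^ j • a) = c a + (j : ZMod p) * e := by
    intro j
    induction j with
    | zero =>
      intro a
      simp
    | succ j ih =>
      intro a
      rw [pow_succ, mul_smul, ih, h2]
      push_cast
      ring
  have h4 : ((orderOf g : ℕ) : ZMod p) * e = 0 := by
    have h5 := h3 (orderOf g) a₀
    rw [inv_pow, pow_orderOf_eq_one, inv_one, one_smul] at h5
    linear_combination -h5
  have he0 : e = 0 := (mul_eq_zero.1 h4).resolve_left hn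
  have h6 : ∀ a, c (g • a) = c a := by
    intro a
    have h7 := h2 (g • a)
    rw [inv_smul_smul, he0, add_zero] at h7
    exact h7.symm
  have h8 := hP c hc h6
  apply Subtype.ext
  funext q
  show c q.1 - c q.2 = 0
  rw [h8 q.1 q.2, sub_self]

/-- The property that invariant functions in the code are constant passes to conjugates. -/
lemma prop_conj (C : AddSubgroup (Ω → ZMod p)) (hC : ∀ (g : S), ∀ c ∈ C, actF p g c ∈ C) (g t : S)
    (hP : ∀ T ∈ C, (∀ a, T (g • a) = T a) → ∀ a b, T a = T b) :
    ∀ T ∈ C, (∀ a, T ((t * g * t⁻¹) • a) = T a) → ∀ a b, T a = T b := by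
  intro T hT hinv a b
  have h1 : actF p t⁻¹ T ∈ C := hC _ _ hT
  have h2 := hP _ h1 (fun x => by
    show T (t⁻¹⁻¹ • g • x) = T (t⁻¹⁻¹ • x)
    rw [inv_inv]
    have h3 := hinv (t • x)
    rw [show (t * g * t⁻¹) • t • x = t • g • x by simp [mul_smul]] at h3
    exact h3)
  have h4 := h2 (t⁻¹ • a) (t⁻¹ • b)
  simpa [actF] using h4

/-- The property passes from powers. -/
lemma prop_of_pow (C : AddSubgroup (Ω → ZMod p)) (g : S) (j : ℕ)
    (hP : ∀ T ∈ C, (∀ a, T ((g ^ j) • a) = T a) → ∀ a b, T a = T b) :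
    ∀ T ∈ C, (∀ a, T (g • a) = T a) → ∀ a b, T a = T b := by
  intro T hT hinv
  apply hP T hT
  have h : ∀ (i : ℕ) (a : Ω), T ((g ^ i) • a) = T a := by
    intro i
    induction i with
    | zero =>
      intro a
      simp
    | succ i ih =>
      intro a
      rw [pow_succ, mul_smul, ih, hinv]
  exact h j

end Cfsg.Agent.Lib.PrimeGraph.Code
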