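import Mathlib

/-!
# An explicit field with sixteen elements, with tables for kernel computations
-/

set_option autoImplicit false

namespace Cfsg.Agent.Lib.PrimeGraph.FF16

/-- The field with 16 elements -/
def K16 : Type := Fin 16

instance : DecidableEq K16 := inferInstanceAs (DecidableEq (Fin 16))
instance : Fintype K16 := inferInstanceAs (Fintype (Fin 16))

def mulT : ℕ := 116196760129267793630862849262464326346044543732748708940920453221664288556434379745879494961270582141731748813355742142288220638766218855867759359510984593843506004200114943278699875244065120512813025380665946106619127097398772031257643617143689515450995722003729973585221105779229319991106539050771048038400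
def invT : ℕ := 9460475325918865680
def add16 (a b : K16) : K16 := (⟨Nat.mod (Nat.xor a.1 b.1) 16, Nat.mod_lt _ (by norm_num)⟩ : Fin 16)
def mul16 (a b : K16) : K16 :=
  (⟨Nat.mod (Nat.shiftRight mulT (Nat.mul 4 (Nat.add (Nat.mul 16 a.1) b.1))) 16, Nat.mod_lt _ (by norm_num)⟩ : Fin 16)
def z16 : K16 := (0 : Fin 16)
def o16 : K16 := (1 : Fin 16)
def inv16 (a : K16) : K16 := (⟨Nat.mod (Nat.shiftRight invT (Nat.mul 4 a.1)) 16, Nat.mod_lt _ (by norm_num)⟩ : Fin 16)

theorem add_assoc16 : ∀ a b c : K16, add16 (add16 a b) c = add16 a (add16 b c) := by decide +kernel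
theorem zero_add16 : ∀ a : K16, add16 z16 a = a := by decide +kernel
theorem add_zero16 : ∀ a : K16, add16 a z16 = a := by decide +kernel
theorem add_self16 : ∀ a : K16, add16 a a = z16 := by decide +kernel
theorem add_comm16 : ∀ a b : K16, add16 a b = add16 b a := by decide +kernel
theorem mul_assoc16 : ∀ a b c : K16, mul16 (mul16 a b) c = mul16 a (mul16 b c) := by decide +kernel
theorem one_mul16 : ∀ a : K16, mul16 o16 a = a := by decide +kernel
theorem mul_one16 : ∀ a : K16, mul16 a o16 = a := by decide +kernel
theorem zero_mul16 : ∀ a : K16, mul16 z16 a = z16 := by decide +kernel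
theorem mul_zero16 : ∀ a : K16, mul16 a z16 = z16 := by decide +kernel
theorem mul_comm16 : ∀ a b : K16, mul16 a b = mul16 b a := by decide +kernel
theorem distrib16 : ∀ a b c : K16, mul16 a (add16 b c) = add16 (mul16 a b) (mul16 a c) := by decide +kernel
theorem mul_inv16 : ∀ a : K16, a ≠ z16 → mul16 a (inv16 a) = o16 := by decide +kernel
theorem inv_zero16 : inv16 z16 = z16 := by decide +kernel
theorem ne16 : z16 ≠ o16 := by decide +kernel

instance : Add K16 := ⟨add16⟩
instance : Mul K16 := ⟨mul16⟩
instance : Zero K16 := ⟨z16⟩
instance : One K16 := ⟨o16⟩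
instance : Neg K16 := ⟨id⟩
instance : Inv K16 := ⟨inv16⟩

instance instK16 : Field K16 where
  add_assoc := add_assoc16
  zero_add := zero_add16
  add_zero := add_zero16
  nsmul := nsmulRec
  zsmul := zsmulRec
  neg_add_cancel := add_self16
  add_comm := add_comm16
  left_distrib := distrib16
  right_distrib := fun a b c => by
    show mul16 (add16 a b) c = add16 (mul16 a c) (mul16 b c)
    rw [mul_comm16, distrib16, mul_comm16 c a, mul_comm16 c b]
  zero_mul := zero_mul16
  mul_zero := mul_zero16
  mul_assoc := mul_assoc16
  one_mul := one_mul16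
  mul_one := mul_one16
  mul_comm := mul_comm16
  exists_pair_ne := ⟨z16, o16, ne16⟩
  mul_inv_cancel := mul_inv16
  inv_zero := inv_zero16
  nnqsmul := _
  qsmul := _

theorem card_K16 : Fintype.card K16 = 16 := by decide +kernel

end Cfsg.Agent.Lib.PrimeGraph.FF16
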