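import Mathlib

/-!
# An explicit field with four elements, with tables for kernel computations
-/

set_option autoImplicit false

namespace Cfsg.Agent.Lib.PrimeGraph.FF4T

/-- The field with 4 elements. -/
def K4 : Type := Fin 4

instance : DecidableEq K4 := inferInstanceAs (DecidableEq (Fin 4))
instance : Fintype K4 := inferInstanceAs (Fintype (Fin 4))

def mulT4 : ℕ := 2625168384
def add4 (a b : K4) : K4 := (⟨Nat.mod (Nat.xor a.1 b.1) 4, Nat.mod_lt _ (by norm_num)⟩ : Fin 4)
def mul4 (a b : K4) : K4 :=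
  (⟨Nat.mod (Nat.shiftRight mulT4 (Nat.mul 2 (Nat.add (Nat.mul 4 a.1) b.1))) 4, Nat.mod_lt _ (by norm_num)⟩ : Fin 4)
def z4 : K4 := (0 : Fin 4)
def o4 : K4 := (1 : Fin 4)
def inv4 (a : K4) : K4 := mul4 a a

theorem add_assoc4 : ∀ a b c : K4, add4 (add4 a b) c = add4 a (add4 b c) := by decide +kernel
theorem zero_add4 : ∀ a : K4, add4 z4 a = a := by decide +kernel
theorem add_zero4 : ∀ a : K4, add4 a z4 = a := by decide +kernel
theorem add_self4 : ∀ a : K4, add4 a a = z4 := by decide +kernel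
theorem add_comm4 : ∀ a b : K4, add4 a b = add4 b a := by decide +kernel
theorem mul_assoc4 : ∀ a b c : K4, mul4 (mul4 a b) c = mul4 a (mul4 b c) := by decide +kernel
theorem one_mul4 : ∀ a : K4, mul4 o4 a = a := by decide +kernel
theorem mul_one4 : ∀ a : K4, mul4 a o4 = a := by decide +kernel
theorem zero_mul4 : ∀ a : K4, mul4 z4 a = z4 := by decide +kernel
theorem mul_zero4 : ∀ a : K4, mul4 a z4 = z4 := by decide +kernel
theorem mul_comm4 : ∀ a b : K4, mul4 a b = mul4 b a := by decide +kernel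
theorem distrib4 : ∀ a b c : K4, mul4 a (add4 b c) = add4 (mul4 a b) (mul4 a c) := by decide +kernel
theorem mul_inv4 : ∀ a : K4, a ≠ z4 → mul4 a (inv4 a) = o4 := by decide +kernel
theorem inv_zero4 : inv4 z4 = z4 := by decide +kernel
theorem ne4 : z4 ≠ o4 := by decide +kernel

instance : Add K4 := ⟨add4⟩
instance : Mul K4 := ⟨mul4⟩
instance : Zero K4 := ⟨z4⟩
instance : One K4 := ⟨o4⟩
instance : Neg K4 := ⟨id⟩
instance : Inv K4 := ⟨inv4⟩

instance instK4 : Field K4 where
  add_assoc := add_assoc4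
  zero_add := zero_add4
  add_zero := add_zero4
  nsmul := nsmulRec
  zsmul := zsmulRec
  neg_add_cancel := add_self4
  add_comm := add_comm4
  left_distrib := distrib4
  right_distrib := fun a b c => by
    show mul4 (add4 a b) c = add4 (mul4 a c) (mul4 b c)
    rw [mul_comm4, distrib4, mul_comm4 c a, mul_comm4 c b]
  zero_mul := zero_mul4
  mul_zero := mul_zero4
  mul_assoc := mul_assoc4
  one_mul := one_mul4
  mul_one := mul_one4
  mul_comm := mul_comm4
  exists_pair_ne := ⟨z4, o4, ne4⟩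
  mul_inv_cancel := mul_inv4
  inv_zero := inv_zero4
  nnqsmul := _
  qsmul := _

theorem card_K4 : Fintype.card K4 = 4 := by decide +kernel

/-- A number mod 2, as an element. -/
def cd2 (x : ℕ) : K4 := (⟨Nat.mod (Nat.mod x 2) 4, Nat.mod_lt _ (by norm_num)⟩ : Fin 4)

end Cfsg.Agent.Lib.PrimeGraph.FF4T
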