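import Mathlib

/-!
# Module extensions with the same prime graph

If `W` is a nontrivial finite `S`-module of exponent `p`, with `p ∣ |S|`, and every element of prime order
`q ≠ p` of `S` with a nonzero fixed vector on `W` gives an element of order `p * q` of `S`, then the groups
`W^k ⋊ S` have the same prime graph as `S` and unbounded order.
-/

set_option autoImplicit false

namespace Cfsg.Agent.Lib.PrimeGraph.ModExt

variable (S W : Type) [Group S] [AddCommGroup W] [DistribMulAction S W]

/-- The coordinatewise action. -/
def act (k : ℕ) : S →* MulAut (Multiplicative (Fin k → W)) where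
  toFun g :=
    { toFun := fun v => Multiplicative.ofAdd (g • Multiplicative.toAdd v)
      invFun := fun v => Multiplicative.ofAdd (g⁻¹ • Multiplicative.toAdd v)
      left_inv := fun v => by
        apply Multiplicative.toAdd.injective
        simp
      right_inv := fun v => by
        apply Multiplicative.toAdd.injective
        simp
      map_mul' := fun v w => by
        apply Multiplicative.toAdd.injective
        simp [smul_add] }
  map_one' := by
    apply MulEquiv.ext
    intro v
    apply Multiplicative.toAdd.injective
    simp
  map_mul' g h := by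
    apply MulEquiv.ext
    intro v
    apply Multiplicative.toAdd.injective
    simp [mul_smul]

/-- The semidirect product `W^k ⋊ S`. -/
abbrev HH (k : ℕ) : Type := Multiplicative (Fin k → W) ⋊[act S W k] S

variable {S W}

lemma pow_right {k : ℕ} (h : HH S W k) (n : ℕ) : (h ^ n).right = h.right ^ n := by
  rw [← SemidirectProduct.rightHom_eq_right, map_pow]

lemma pow_left {k : ℕ} (h : HH S W k) (n : ℕ) (i : Fin k) :
    Multiplicative.toAdd (h ^ n).left i =
      ∑ j ∈ Finset.range n, (h.right ^ j) • Multiplicative.toAdd h.left i := by
  induction n with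
  | zero => simp
  | succ n ih =>
    rw [pow_succ', SemidirectProduct.mul_left, toAdd_mul, Pi.add_apply, Finset.sum_range_succ']
    have h1 : Multiplicative.toAdd ((act S W k) h.right (h ^ n).left) i =
        h.right • Multiplicative.toAdd (h ^ n).left i := rfl
    rw [h1, ih, Finset.smul_sum, add_comm, pow_zero, one_smul]
    congr 1
    apply Finset.sum_congr rfl
    intro j _
    rw [smul_smul, pow_succ']

/-- The prime graph statement. -/
def SamePG (A B : Type*) [Group A] [Group B] : Prop :=
  (∀ p : ℕ, p.Prime → (p ∣ Nat.card A ↔ p ∣ Nat.card B)) ∧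
    (∀ p q : ℕ, p.Prime → q.Prime → p ≠ q → ((∃ g : A, orderOf g = p * q) ↔ (∃ g : B, orderOf g = p * q)))

lemma SamePG.congr_left {A A' B : Type*} [Group A] [Group A'] [Group B] (e : A ≃* A') (h : SamePG A' B) :
    SamePG A B := by
  refine ⟨fun p hp => ?_, fun p q hp hq hpq => ?_⟩
  · rw [Nat.card_congr e.toEquiv]
    exact h.1 p hp
  · rw [← h.2 p q hp hq hpq]
    constructor
    · rintro ⟨g, hg⟩
      exact ⟨e g, by rw [MulEquiv.orderOf_eq]; exact hg⟩
    · rintro ⟨g, hg⟩
      exact ⟨e.symm g, by rw [MulEquiv.orderOf_eq]; exact hg⟩

theorem samePG_of_module [Finite S] [Finite W] (p : ℕ) (hp : p.Prime) (hW : ∀ w : W, p • w = 0)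
    (hpS : p ∣ Nat.card S)
    (hfix : ∀ g : S, ∀ q : ℕ, q.Prime → q ≠ p → orderOf g = q → ∀ w : W, w ≠ 0 → g • w = w →
      ∃ x : S, orderOf x = p * q) (k : ℕ) : SamePG S (HH S W k) := by
  classical
  haveI : Fact p.Prime := ⟨hp⟩
  refine ⟨fun r hr => ?_, fun r s hr hs hrs => ?_⟩
  · rw [SemidirectProduct.card]
    constructor
    · intro h
      exact h.trans (Nat.dvd_mul_left _ _)
    · intro h
      rcases (Nat.Prime.dvd_mul hr).1 h with h | h
      · -- `r` divides the order of the `p`-group
        have h1 : Nat.card (Multiplicative (Fin k → W)) = Nat.card W ^ k := by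
          rw [Nat.card_congr Multiplicative.toAdd]
          simp [Nat.card_pi]
        rw [h1] at h
        have h2 := hr.dvd_of_dvd_pow h
        haveI : Fact r.Prime := ⟨hr⟩
        obtain ⟨w, hw⟩ := exists_prime_addOrderOf_dvd_card' r h2
        have h3 : addOrderOf w ∣ p := addOrderOf_dvd_of_nsmul_eq_zero (hW w)
        rw [hw] at h3
        rw [(Nat.prime_dvd_prime_iff_eq hr hp).1 h3]
        exact hpS
      · exact h
  · constructor
    · rintro ⟨g, hg⟩
      refine ⟨SemidirectProduct.inr g, ?_⟩
      rw [orderOf_injective SemidirectProduct.inr SemidirectProduct.inr_injective g, hg]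
    · rintro ⟨h, hh⟩
      set g := h.right with hg
      set o := orderOf g with ho
      have hgo : g ^ o = 1 := pow_orderOf_eq_one g
      have hdvd : o ∣ orderOf h := by
        have := orderOf_map_dvd (SemidirectProduct.rightHom (φ := act S W k)) h
        exact this
      by_cases hu : ∀ i, Multiplicative.toAdd (h ^ o).left i = 0
      · -- the order of `h` is that of `g`
        have h1 : h ^ o = 1 := by
          apply SemidirectProduct.ext
          · apply Multiplicative.toAdd.injective
            funext i
            rw [hu i]
            rfl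
          · rw [pow_right, ← hg, hgo]
            rfl
        have h2 : orderOf h = o := Nat.dvd_antisymm (orderOf_dvd_of_pow_eq_one h1) hdvd
        exact ⟨g, by rw [← ho, ← h2, hh]⟩
      · push Not at hu
        obtain ⟨i, hi⟩ := hu
        set u := Multiplicative.toAdd (h ^ o).left i with hud
        have hfixu : g • u = u := by
          rw [hud, pow_left, Finset.smul_sum, ← hg]
          have h1 : ∑ j ∈ Finset.range o, g • g ^ j • Multiplicative.toAdd h.left i =
              ∑ j ∈ Finset.range o, g ^ (j + 1) • Multiplicative.toAdd h.left i := by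
            apply Finset.sum_congr rfl
            intro j _
            rw [smul_smul, pow_succ']
          rw [h1]
          have h3 : ∑ j ∈ Finset.range o, g ^ (j + 1) • Multiplicative.toAdd h.left i + g ^ 0 • Multiplicative.toAdd h.left i =
              ∑ j ∈ Finset.range o, g ^ j • Multiplicative.toAdd h.left i + g ^ o • Multiplicative.toAdd h.left i := by
            rw [← Finset.sum_range_succ' (fun j => g ^ j • Multiplicative.toAdd h.left i) o, Finset.sum_range_succ]
          rw [hgo, pow_zero] at h3
          exact add_right_cancel h3
        have hpo : h ^ (o * p) = 1 := by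
          rw [pow_mul]
          apply SemidirectProduct.ext
          · apply Multiplicative.toAdd.injective
            funext i'
            rw [pow_left]
            have hr1 : (h ^ o).right = 1 := by rw [pow_right, ← hg, hgo]
            rw [hr1]
            simp only [one_pow, one_smul, Finset.sum_const, Finset.card_range]
            exact hW _
          · rw [pow_right, pow_right, ← hg, hgo, one_pow]
            rfl
        -- the order of `h` is `o * p`
        have hne : orderOf h ≠ o := by
          intro h1
          apply hi
          have h2 : h ^ o = 1 := by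
            rw [← h1]
            exact pow_orderOf_eq_one h
          rw [hud, h2]
          rfl
        obtain ⟨d, hd⟩ := hdvd
        have hopos : 0 < o := orderOf_pos g
        have hd2 : d ∣ p := by
          have h3 : orderOf h ∣ o * p := orderOf_dvd_of_pow_eq_one hpo
          rw [hd] at h3
          exact (Nat.mul_dvd_mul_iff_left hopos).1 h3
        have hdp : d = p := by
          rcases (Nat.dvd_prime hp).1 hd2 with h4 | h4
          · exfalso
            apply hne
            rw [hd, h4, mul_one]
          · exact h4
        subst hdp
        have hrs2 : r * s = o * d := by rw [← hh, hd]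
        have hdvdrs : d ∣ r * s := by
          rw [hrs2]
          exact Nat.dvd_mul_left _ _
        rcases (Nat.Prime.dvd_mul hp).1 hdvdrs with h5 | h5
        · have h6 : d = r := (Nat.prime_dvd_prime_iff_eq hp hr).1 h5
          subst h6
          have h7 : o = s := by
            have : d * s = d * o := by rw [hrs2, mul_comm]
            exact (Nat.eq_of_mul_eq_mul_left hp.pos this).symm
          obtain ⟨x, hx⟩ := hfix g s hs hrs.symm (by rw [← ho, h7]) u hi hfixu
          exact ⟨x, hx⟩
        · have h6 : d = s := (Nat.prime_dvd_prime_iff_eq hp hs).1 h5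
          subst h6
          have h7 : o = r := by
            have : o * d = r * d := hrs2.symm
            exact Nat.eq_of_mul_eq_mul_right hp.pos this
          obtain ⟨x, hx⟩ := hfix g r hr hrs (by rw [← ho, h7]) u hi hfixu
          exact ⟨x, by rw [hx, mul_comm]⟩

/-- The existence statement. -/
theorem exists_of_module [Finite S] [Finite W] [Nontrivial W] (p : ℕ) (hp : p.Prime) (hW : ∀ w : W, p • w = 0)
    (hpS : p ∣ Nat.card S)
    (hfix : ∀ g : S, ∀ q : ℕ, q.Prime → q ≠ p → orderOf g = q → ∀ w : W, w ≠ 0 → g • w = w →
      ∃ x : S, orderOf x = p * q) (N : ℕ) :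
    ∃ (H : Type) (_ : Group H) (_ : Finite H), N < Nat.card H ∧ SamePG S H := by
  refine ⟨HH S W N, inferInstance, Finite.of_equiv _ SemidirectProduct.equivProd.symm, ?_,
    samePG_of_module p hp hW hpS hfix N⟩
  rw [SemidirectProduct.card]
  have h1 : Nat.card (Multiplicative (Fin N → W)) = Nat.card W ^ N := by
    rw [Nat.card_congr Multiplicative.toAdd]
    simp [Nat.card_pi]
  rw [h1]
  have h2 : 2 ≤ Nat.card W := Finite.one_lt_card
  have h3 : N < 2 ^ N := Nat.lt_two_pow_self
  have h4 : 2 ^ N ≤ Nat.card W ^ N := Nat.pow_le_pow_left h2 N
  have h5 : 0 < Nat.card S := Nat.card_pos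
  calc N < Nat.card W ^ N := h3.trans_le h4
    _ ≤ Nat.card W ^ N * Nat.card S := Nat.le_mul_of_pos_right _ h5

end Cfsg.Agent.Lib.PrimeGraph.ModExt
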